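import Mathlib.GroupTheory.Commutator.Basic
import Mathlib.GroupTheory.GroupAction.ConjAct
import Mathlib.Tactic.Group

set_option autoImplicit false
set_option linter.style.haveILetI false

/-!
Baer's trick: a group of class at most two in which commutators have a unique "half" carries an
abelian group structure with the same automorphisms.
-/

namespace Cfsg.Agent.Cop

open scoped commutatorElement

/-- Type synonym carrying the Baer abelian group structure. -/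
def Baer (R : Type*) := R

section

variable {R : Type*} [Group R]

theorem comm_mul_left (hcl : ∀ x y z : R, Commute ⁅x, y⁆ z) (x y z : R) :
    ⁅x * y, z⁆ = ⁅x, z⁆ * ⁅y, z⁆ := by
  have h := hcl y z x⁻¹
  have h2 : ⁅x * y, z⁆ = x * ⁅y, z⁆ * x⁻¹ * ⁅x, z⁆ := by
    simp only [commutatorElement_def]; group
  rw [h2, mul_assoc x, h.eq, ← mul_assoc, mul_inv_cancel, one_mul, (hcl y z ⁅x, z⁆).eq]

theorem comm_mul_right (hcl : ∀ x y z : R, Commute ⁅x, y⁆ z) (x y z : R) :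
    ⁅x, y * z⁆ = ⁅x, y⁆ * ⁅x, z⁆ := by
  rw [← commutatorElement_inv, comm_mul_left hcl, mul_inv_rev, commutatorElement_inv,
    commutatorElement_inv, (hcl x z _).eq]

theorem comm_inv_left (hcl : ∀ x y z : R, Commute ⁅x, y⁆ z) (x y : R) :
    ⁅x⁻¹, y⁆ = ⁅x, y⁆⁻¹ := by
  have h := comm_mul_left hcl x x⁻¹ y
  rw [mul_inv_cancel, commutatorElement_one_left] at h
  exact (inv_eq_of_mul_eq_one_right h.symm).symm

theorem comm_central_left (x y : R) (h : ∀ z, Commute x z) : ⁅x, y⁆ = 1 := by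
  rw [commutatorElement_eq_one_iff_commute]; exact h y

theorem comm_central_right (x y : R) (h : ∀ z, Commute y z) : ⁅x, y⁆ = 1 := by
  rw [commutatorElement_eq_one_iff_commute]; exact (h x).symm

/-- the Baer product -/
def bmul (h : ℕ) (x y : R) : R := x * y * ⁅y, x⁆ ^ h

theorem bmul_comm (hcl : ∀ x y z : R, Commute ⁅x, y⁆ z) {h : ℕ}
    (hh : ∀ x y : R, ⁅x, y⁆ ^ (2 * h) = ⁅x, y⁆) (x y : R) : bmul h x y = bmul h y x := by
  unfold bmul
  have h1 : y * x = x * y * ⁅y, x⁆ := by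
    rw [← (hcl y x (x * y)).eq, commutatorElement_def]; group
  have h2 : ⁅x, y⁆ = ⁅y, x⁆⁻¹ := (commutatorElement_inv y x).symm
  rw [h1, h2, mul_assoc (x * y)]
  congr 1
  have h3 : ⁅y, x⁆ = ⁅y, x⁆ ^ h * ⁅y, x⁆ ^ h := by
    rw [← pow_add, ← two_mul, hh]
  rw [inv_pow]
  conv_rhs => rw [h3]
  generalize ⁅y, x⁆ ^ h ^ 1 = w at *
  rw [← h3]
  rw [eq_mul_inv_iff_mul_eq, ← h3]

theorem bmul_assoc (hcl : ∀ x y z : R, Commute ⁅x, y⁆ z) (h : ℕ) (x y z : R) :
    bmul h (bmul h x y) z = bmul h x (bmul h y z) := by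
  have hclp : ∀ x y z : R, ∀ n : ℕ, Commute (⁅x, y⁆ ^ n) z := fun x y z n => (hcl x y z).pow_left n
  unfold bmul
  have e1 : ⁅z, x * y * ⁅y, x⁆ ^ h⁆ = ⁅z, x⁆ * ⁅z, y⁆ := by
    rw [comm_mul_right hcl, comm_mul_right hcl, comm_central_right z _ (fun w => hclp y x w h), mul_one]
  have e2 : ⁅y * z * ⁅z, y⁆ ^ h, x⁆ = ⁅y, x⁆ * ⁅z, x⁆ := by
    rw [comm_mul_left hcl, comm_mul_left hcl, comm_central_left _ x (fun w => hclp z y w h), mul_one]
  rw [e1, e2, (hcl z x ⁅z, y⁆).mul_pow, (hcl y x ⁅z, x⁆).mul_pow]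
  calc x * y * ⁅y, x⁆ ^ h * z * (⁅z, x⁆ ^ h * ⁅z, y⁆ ^ h)
      = x * y * (⁅y, x⁆ ^ h * z) * (⁅z, x⁆ ^ h * ⁅z, y⁆ ^ h) := by simp only [mul_assoc]
    _ = x * y * (z * ⁅y, x⁆ ^ h) * (⁅z, y⁆ ^ h * ⁅z, x⁆ ^ h) := by
        rw [(hclp y x z h).eq, (hclp z x (⁅z, y⁆ ^ h) h).eq]
    _ = x * y * z * (⁅y, x⁆ ^ h * ⁅z, y⁆ ^ h) * ⁅z, x⁆ ^ h := by simp only [mul_assoc]
    _ = x * y * z * (⁅z, y⁆ ^ h * ⁅y, x⁆ ^ h) * ⁅z, x⁆ ^ h := by rw [(hclp y x (⁅z, y⁆ ^ h) h).eq]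
    _ = x * (y * z * ⁅z, y⁆ ^ h) * (⁅y, x⁆ ^ h * ⁅z, x⁆ ^ h) := by simp only [mul_assoc]

theorem one_bmul (h : ℕ) (x : R) : bmul h 1 x = x := by
  simp [bmul]

theorem bmul_one (h : ℕ) (x : R) : bmul h x 1 = x := by
  simp [bmul]

theorem bmul_of_commute (h : ℕ) {x y : R} (hxy : Commute x y) : bmul h x y = x * y := by
  have : ⁅y, x⁆ = 1 := commutatorElement_eq_one_iff_commute.2 hxy.symm
  simp [bmul, this]

theorem inv_bmul (h : ℕ) (x : R) : bmul h x⁻¹ x = 1 := by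
  rw [bmul_of_commute h (Commute.refl x).inv_left, inv_mul_cancel]

theorem map_bmul {S : Type*} [Group S] (f : R →* S) (h : ℕ) (x y : R) :
    f (bmul h x y) = bmul h (f x) (f y) := by
  simp [bmul, map_commutatorElement]

/-- The Baer abelian group. -/
@[reducible] def baerCommGroup (hcl : ∀ x y z : R, Commute ⁅x, y⁆ z) (h : ℕ)
    (hh : ∀ x y : R, ⁅x, y⁆ ^ (2 * h) = ⁅x, y⁆) : CommGroup (Baer R) where
  mul x y := bmul (R := R) h x y
  one := (1 : R)
  inv x := Inv.inv (α := R) x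
  mul_assoc x y z := bmul_assoc hcl h x y z
  one_mul x := one_bmul (R := R) h x
  mul_one x := bmul_one (R := R) h x
  inv_mul_cancel x := inv_bmul (R := R) h x
  mul_comm x y := bmul_comm hcl hh x y

/-- automorphisms act on the Baer group -/
@[reducible] def baerAction {B : Type*} [Group B] (φ : B →* MulAut R)
    (hcl : ∀ x y z : R, Commute ⁅x, y⁆ z) (h : ℕ)
    (hh : ∀ x y : R, ⁅x, y⁆ ^ (2 * h) = ⁅x, y⁆) :
    @MulDistribMulAction B (Baer R) _ (baerCommGroup hcl h hh).toMonoid :=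
  letI := baerCommGroup hcl h hh
  { smul := fun b x => φ b (x : R)
    one_smul := fun x => by
      change φ 1 (x : R) = x
      rw [map_one]; rfl
    mul_smul := fun a b x => by
      change φ (a * b) (x : R) = φ a (φ b (x : R))
      rw [map_mul]; rfl
    smul_mul := fun b x y => map_bmul (φ b : R →* R) h x y
    smul_one := fun b => map_one (φ b) }

end

end Cfsg.Agent.Cop
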