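import Cfsg.Agent.Cop.Baer
import Cfsg.Agent.Cop.MinAct

set_option autoImplicit false
set_option linter.style.haveILetI false
set_option linter.unusedSectionVars false

/-!
Thompson's strengthening of the `A × B` lemma for odd primes.
-/

namespace Cfsg.Agent.Cop

open scoped Pointwise commutatorElement
open Subgroup

theorem fixed_abelian {B V : Type*} [Group B] [Finite B] [CommGroup V] [Finite V] [MulDistribMulAction B V]
    {p : ℕ} [Fact p.Prime] (hV : IsPGroup p V) (P Q : Subgroup B) (hP : IsPGroup p P)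
    (hQ : (Nat.card Q).Coprime p) (hPQ : P ≤ normalizer (Q : Set B))
    (h : ∀ v : V, (∀ x ∈ P, x • v = v) → ∀ q ∈ Q, q • v = v) :
    ∀ v : V, ∀ q ∈ Q, q • v = v := by
  classical
  cases nonempty_fintype Q
  intro v q hq
  by_contra hne
  set N := H91.nrm Q V with hN
  have hNP : ∀ x ∈ P, ∀ u : V, N (x • u) = x • N u := by
    intro x hx u
    rw [hN, H91.nrm_apply, H91.nrm_apply, Finset.smul_prod']
    simp only [← mul_smul, Subgroup.smul_def]
    refine Fintype.prod_bijective
      (fun a : Q => (⟨x⁻¹ * a * x, (mem_normalizer_iff''.1 (hPQ hx) a).1 a.2⟩ : Q)) ?_ _ _ ?_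
    · rw [Function.bijective_iff_has_inverse]
      refine ⟨fun a => ⟨x * a * x⁻¹, (mem_normalizer_iff.1 (hPQ hx) a).1 a.2⟩, ?_, ?_⟩
      · intro a; apply Subtype.ext; simp; group
      · intro a; apply Subtype.ext; simp; group
    · intro a
      congr 1
      simp; group
  let act : MulAction P N.ker :=
    { smul := fun x u => ⟨(x : B) • (u : V), by
        rw [MonoidHom.mem_ker, hNP x x.2, MonoidHom.mem_ker.1 u.2, smul_one]⟩
      one_smul := fun u => Subtype.ext (one_smul B (u : V))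
      mul_smul := fun x y u => Subtype.ext (mul_smul (x : B) (y : B) (u : V)) }
  have hsm : ∀ (x : P) (u : N.ker), ((x • u : N.ker) : V) = (x : B) • (u : V) := fun x u => rfl
  have hw : v⁻¹ * (q • v) ∈ N.ker := by
    rw [MonoidHom.mem_ker, map_mul, map_inv, hN]
    have := H91.nrm_smul (A := Q) (V := V) ⟨q, hq⟩ v
    change H91.nrm Q V (q • v) = _ at this
    rw [this, inv_mul_cancel]
  have hK : Nontrivial N.ker := by
    refine ⟨⟨⟨_, hw⟩, 1, ?_⟩⟩
    intro h1
    have h2 := congrArg Subtype.val h1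
    change v⁻¹ * (q • v) = 1 at h2
    exact hne (inv_mul_eq_one.1 h2).symm
  have hKp : IsPGroup p N.ker := hV.to_subgroup _
  obtain ⟨n, hn0, hn⟩ := (IsPGroup.nontrivial_iff_card hKp).1 hK
  have hdvd : p ∣ Nat.card N.ker := by rw [hn]; exact dvd_pow_self p hn0.ne'
  obtain ⟨u, hu, hu1⟩ := hP.exists_fixed_point_of_prime_dvd_card_of_fixed_point N.ker hdvd
    (a := 1) (by
      intro x
      apply Subtype.ext
      rw [hsm]
      exact smul_one _)
  have h1 : ∀ x ∈ P, x • (u : V) = u := fun x hx => congrArg Subtype.val (hu ⟨x, hx⟩)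
  have h2 := h (u : V) h1
  have hcop : (Nat.card Q).Coprime (Nat.card V) := by
    obtain ⟨m, hm⟩ := IsPGroup.iff_card.1 hV
    rw [hm]; exact Nat.Coprime.pow_right m hQ
  have h3 : (u : V) = 1 := H91.eq_one_of_fixed_of_nrm (A := Q) hcop (fun a => h2 a a.2)
    (MonoidHom.mem_ker.1 u.2)
  exact hu1 (Subtype.ext h3.symm)

/-- class at most two, odd order -/
theorem fixed_classTwo {B R : Type*} [Group B] [Finite B] [Group R] [Finite R] (φ : B →* MulAut R)
    {p : ℕ} [hp : Fact p.Prime] (hp2 : p ≠ 2) (hR : IsPGroup p R)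
    (hcl : ∀ x y z : R, Commute ⁅x, y⁆ z) (P Q : Subgroup B) (hP : IsPGroup p P)
    (hQ : (Nat.card Q).Coprime p) (hPQ : P ≤ normalizer (Q : Set B))
    (h : ∀ v : R, (∀ x ∈ P, φ x v = v) → ∀ q ∈ Q, φ q v = v) :
    ∀ v : R, ∀ q ∈ Q, φ q v = v := by
  obtain ⟨n, hn⟩ := IsPGroup.iff_card.1 hR
  have hodd : Odd (Nat.card R) := by
    rw [hn]; exact (hp.out.odd_of_ne_two hp2).pow
  obtain ⟨k, hk⟩ := hodd
  have hh : ∀ x y : R, ⁅x, y⁆ ^ (2 * (k + 1)) = ⁅x, y⁆ := by
    intro x y
    have : 2 * (k + 1) = Nat.card R + 1 := by omega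
    rw [this, pow_succ, pow_card_eq_one', one_mul]
  letI := baerCommGroup hcl (k + 1) hh
  letI := baerAction φ hcl (k + 1) hh
  haveI : Finite (Baer R) := ‹Finite R›
  have hcardV : Nat.card (Baer R) = p ^ n := hn
  exact fixed_abelian (B := B) (V := Baer R) (IsPGroup.of_card hcardV) P Q hP hQ hPQ h

variable {X : Type*} [Group X] [Finite X]

/-- Thompson: `p` odd, `P` normalizes `Q`, `C_G(P) ≤ C(Q)` implies `[G,Q] = 1`. -/
theorem le_centralizer_of_thompson_odd {p : ℕ} [hp : Fact p.Prime] (hp2 : p ≠ 2) (P Q G : Subgroup X)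
    (hP : IsPGroup p P) (hQ : (Nat.card Q).Coprime p) (hPQ : P ≤ normalizer (Q : Set X))
    (hG : IsPGroup p G) (hPG : P ≤ normalizer (G : Set X)) (hQG : Q ≤ normalizer (G : Set X))
    (hC : G ⊓ centralizer (P : Set X) ≤ centralizer (Q : Set X)) : Q ≤ centralizer (G : Set X) := by
  rw [le_centralizer_iff, ← commutator_eq_bot_iff_le_centralizer]
  by_contra hnt
  have hBG : P ⊔ Q ≤ normalizer (G : Set X) := sup_le hPG hQG
  have hBQ : P ⊔ Q ≤ normalizer (Q : Set X) := sup_le hPQ le_normalizer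
  obtain ⟨H, hHG, hBH, hHnt, hmin⟩ := exists_min hBG hnt
  have hH : IsPGroup p H := hG.to_le hHG
  have hst := min_structure hH hBH le_sup_right hBQ hQ hHnt hmin
  have hcl : ∀ x y z : H, Commute ⁅x, y⁆ z := by
    intro x y z
    rcases hst with ⟨h3, _⟩ | ⟨h3, _⟩
    · exact h3.1.1.1 _ _
    · have h6 : ⁅x, y⁆ ∈ center H := by
        rw [← h3.2.2, _root_.commutator_def]
        exact commutator_mem_commutator (mem_top _) (mem_top _)
      exact (mem_center_iff.1 h6 z).symm
  set B := P ⊔ Q with hB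
  set φ : B →* MulAut H := (Subgroup.normalizerMonoidHom H).comp (Subgroup.inclusion hBH) with hφ
  have hφa : ∀ (a : B) (x : H), ((φ a x : H) : X) = a * x * (a : X)⁻¹ := fun a x => rfl
  have hPB : P ≤ B := le_sup_left
  have hQB : Q ≤ B := le_sup_right
  have key := fixed_classTwo φ hp2 hH hcl (P.subgroupOf B) (Q.subgroupOf B)
    (hP.comap_of_injective _ B.subtype_injective)
    (by rw [Nat.card_congr (Subgroup.subgroupOfEquivOfLe hQB).toEquiv]; exact hQ)
    (by
      intro x hx
      rw [mem_normalizer_iff]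
      intro y
      exact mem_normalizer_iff.1 (hPQ hx) (y : X))
    (by
      intro v hv q hq
      apply Subtype.ext
      rw [hφa]
      have h1 : (v : X) ∈ centralizer (Q : Set X) := by
        apply hC
        refine ⟨hHG v.2, ?_⟩
        change (v : X) ∈ centralizer (P : Set X)
        rw [mem_centralizer_iff]
        intro x hx
        have h2 := congrArg Subtype.val (hv ⟨x, hPB hx⟩ hx)
        rw [hφa] at h2
        exact mul_inv_eq_iff_eq_mul.1 h2
      have h2 := mem_centralizer_iff.1 h1 (q : X) hq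
      exact mul_inv_eq_iff_eq_mul.2 h2)
  apply hHnt
  rw [commutator_eq_bot_iff_le_centralizer]
  intro x hx
  rw [mem_centralizer_iff]
  intro q hq
  have h2 := congrArg Subtype.val (key ⟨x, hx⟩ ⟨q, hQB hq⟩ hq)
  rw [hφa] at h2
  exact mul_inv_eq_iff_eq_mul.1 h2

end Cfsg.Agent.Cop
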